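import Mathlib
import Cfsg.Agent.Lib.FullRam.Basic

/-! Fully ramified characters with small non-abelian Sylow subgroups (Gagola): definitions. -/

set_option autoImplicit false

namespace CfsgLib.FRS

open Cfsg Subgroup

/-- Some irreducible character of `H` is fully ramified over `Z`. -/
def FR (H : Type*) [Group H] (Z : Subgroup H) : Prop :=
  ∃ (χ : H → ℂ) (θ : Z → ℂ) (e : ℕ), IsIrrCharacter H χ ∧ IsIrrCharacter Z θ ∧
    e ^ 2 = Z.index ∧ ∀ z : Z, χ z = e * θ z

/-- Central type: `Z` is central, `χ` is irreducible of degree `e = √[H : Z]` and lies over the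
faithful linear character `lam` of `Z`. -/
structure CT {H : Type*} [Group H] (Z : Subgroup H) (χ : H → ℂ) (lam : Z →* ℂˣ) (e : ℕ) :
    Prop where
  central : Z ≤ center H
  irr : IsIrrCharacter H χ
  inj : Function.Injective lam
  sq : e ^ 2 = Z.index
  val : ∀ z : Z, χ z = e * ((lam z : ℂˣ) : ℂ)

/-- For every prime `p` with `p ^ 6 ∣ |X|` the `p`-subgroups of `X` are abelian. -/
def Hyp (X : Type*) [Group X] : Prop :=
  ∀ p : ℕ, p.Prime → p ^ 6 ∣ Nat.card X → ∀ Q : Subgroup X, IsPGroup p Q → IsMulCommutative Q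

/-- A `2`-subgroup that is abelian, or of class two and order dividing `16`. -/
def Small {X : Type*} [Group X] (T : Subgroup X) : Prop :=
  IsMulCommutative T ∨ (Nat.card T ∣ 16 ∧ ⁅(⊤ : Subgroup T), ⊤⁆ ≤ center T)

variable {H : Type*} [Group H] {Z : Subgroup H} {χ : H → ℂ} {lam : Z →* ℂˣ} {e : ℕ}

theorem CT.normal (h : CT Z χ lam e) : Z.Normal :=
  ⟨fun z hz g => by
    rw [(mem_center_iff.1 (h.central hz) g), mul_inv_cancel_right]; exact hz⟩

theorem CT.isCyclic [Finite H] (h : CT Z χ lam e) : IsCyclic Z :=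
  isCyclic_of_injective_ringHom ((Units.coeHom ℂ).comp lam) (Units.val_injective.comp h.inj)

theorem CT.irr_lam (_h : CT Z χ lam e) : IsIrrCharacter Z (fun z => ((lam z : ℂˣ) : ℂ)) :=
  CfsgLib.Char.isIrr_unitsHom lam

theorem CT.hom [Finite H] (h : CT Z χ lam e) : FullRam.Hom Z χ e := by
  have := Fintype.ofFinite H
  have := h.normal
  exact (FullRam.hom_of h.irr h.irr_lam h.sq h.val).1

/-- `χ` vanishes off `Z`. -/
theorem CT.vanish [Finite H] (h : CT Z χ lam e) {g : H} (hg : g ∉ Z) : χ g = 0 := h.hom.1 g hg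

theorem CT.one (h : CT Z χ lam e) : χ 1 = e := by
  simpa using h.val 1

theorem CT.pos [Finite H] (h : CT Z χ lam e) : e ≠ 0 := by
  rintro rfl
  exact index_ne_zero_of_finite (h.sq.symm.trans (by simp))

theorem CT.mul [Finite H] (h : CT Z χ lam e) (z : Z) (x : H) :
    χ (z * x) = ((lam z : ℂˣ) : ℂ) * χ x := by
  rw [CfsgLib.Char.char_mul_of_norm_eq (CfsgLib.Char.isCharacter_of_isIrr h.irr)
    (CfsgLib.Char.norm_irr_of_mem_center h.irr (h.central z.2)), h.val, h.one,
    mul_div_cancel_left₀ _ (Nat.cast_ne_zero.2 h.pos)]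

end CfsgLib.FRS
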