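import Mathlib
import Cfsg.Agent.Lib.FRS.Defs
import Cfsg.Agent.Lib.Core.Fitting

/-! FRS package HY: the hypothesis passes to sections; the affine lemma `agt`.

`hyp_of_sylow`: `IsPGroup.exists_le_sylow`. `of_injective`: `|Y| ∣ |X|`, `Q ≃ Q.map f`.
`of_surjective`: `|Y| ∣ |X|`; a `p`-subgroup of `Y` lies in a Sylow subgroup of `Y`, which is the
image of a Sylow subgroup of `X` (`Sylow.mapSurjective_surjective`). `Hyp.sect`: `T ⧸ Z` embeds in
`H ⧸ Z` and maps onto `T ⧸ K` (`QuotientGroup.map`), or use the subgroup `T.map (mk' Z)` of `H ⧸ Z`.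

`index_lt` (p-groups): `V ⊴ P`, `V ≠ 1`, `|V| ≤ p²`. `V₀ = V ⊓ Z(P) ≠ 1`, so `V/V₀` has order `1`
or `p`; pick `w ∈ V` with `V = V₀ ⊔ ⟨w⟩` (if `V₀ ≠ V` take `w ∉ V₀`: `|V| = p²`, `|V₀| = p`,
Lagrange). Then `C(V) = C(w)`, `[P : C(w)] = |class of w|`, and the class lies in `V` and misses an
element of `V` (it misses `1` if `w ≠ 1`; it is `{1}` if `w = 1`).

`agt`: `|V| = p^a > 1`. Let `P` be a Sylow `p`-subgroup of `X`; `V ≤ P` (normal `p`-subgroup).
`P ⊓ U` is a `p`-subgroup of `U`, `|X| = |U| |V|`, so `|P ⊓ U| |V| ∣ |X|` is a power of `p`, hence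
`|P ⊓ U| |V| ≤ |P|`; with `D = P ⊓ C(V) ≤ P ⊓ U`: `[P : D] ≥ |V|`. If `p^6 ∣ |X|`, `P` is abelian,
`D = P`, `1 ≥ |V|`, absurd. Else `|P| ≤ p^5`; `V ≤ D` gives `|V|² ≤ |P|`, so `|V| ≤ p²`, and
`index_lt` (in the group `P`, for `V.subgroupOf P`) gives `[P : D] < |V|`. -/

set_option autoImplicit false

namespace CfsgLib.FRS

open Cfsg Subgroup

theorem hyp_of_sylow {X : Type*} [Group X] [Finite X]
    (h : ∀ p : ℕ, p.Prime → p ^ 6 ∣ Nat.card X → ∀ P : Sylow p X, IsMulCommutative P) :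
    Hyp X := by
  intro p hp h6 Q hQ
  haveI := Fact.mk hp
  obtain ⟨P, hP⟩ := hQ.exists_le_sylow
  have := h p hp h6 P
  exact ⟨⟨fun a b => Subtype.ext (congrArg Subtype.val (this.1.1 ⟨a, hP a.2⟩ ⟨b, hP b.2⟩) :)⟩⟩

theorem Hyp.of_injective {X Y : Type*} [Group X] [Group Y] [Finite X] (h : Hyp X) (f : Y →* X)
    (hf : Function.Injective f) : Hyp Y := by
  intro p hp h6 Q hQ
  have := h p hp (h6.trans (card_dvd_of_injective f hf)) _ (hQ.map f)
  exact ⟨⟨fun a b => Subtype.ext (hf (by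
    simpa using congrArg Subtype.val (this.1.1 ⟨f a, mem_map_of_mem f a.2⟩ ⟨f b, mem_map_of_mem f b.2⟩)))⟩⟩

theorem Hyp.of_surjective {X Y : Type*} [Group X] [Group Y] [Finite X] (h : Hyp X) (f : X →* Y)
    (hf : Function.Surjective f) : Hyp Y := by
  haveI := Finite.of_surjective f hf
  refine hyp_of_sylow fun p hp h6 P => ?_
  haveI := Fact.mk hp
  obtain ⟨Q, rfl⟩ := Sylow.mapSurjective_surjective hf p P
  have := h p hp (h6.trans (card_dvd_of_surjective f hf)) Q Q.2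
  refine ⟨⟨?_⟩⟩
  rintro ⟨_, a, ha, rfl⟩ ⟨_, b, hb, rfl⟩
  refine Subtype.ext ?_
  show f a * f b = f b * f a
  simpa using congrArg (fun x : Q => f x) (this.1.1 ⟨a, ha⟩ ⟨b, hb⟩)

theorem Hyp.sect {H : Type*} [Group H] [Finite H] {Z K T : Subgroup H} [Z.Normal] [K.Normal]
    (h : Hyp (H ⧸ Z)) (hZK : Z ≤ K) (hKT : K ≤ T) : Hyp (T ⧸ K.subgroupOf T) := by
  have h1 : Hyp (T ⧸ Z.subgroupOf T) := h.of_injective
    (QuotientGroup.map (Z.subgroupOf T) Z T.subtype le_rfl) (by
      rw [injective_iff_map_eq_one]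
      intro x hx
      obtain ⟨x, rfl⟩ := QuotientGroup.mk_surjective x
      exact (QuotientGroup.eq_one_iff _).2 ((QuotientGroup.eq_one_iff (x : H)).1 hx))
  exact h1.of_surjective (QuotientGroup.map (Z.subgroupOf T) (K.subgroupOf T) (MonoidHom.id T)
    (subgroupOf_mono T hZK)) (QuotientGroup.map_surjective_of_surjective _ _ _ (by
      exact QuotientGroup.mk_surjective) _)

theorem index_lt {P : Type*} [Group P] [Finite P] {p : ℕ} [Fact p.Prime] (hP : IsPGroup p P)
    (V : Subgroup P) [V.Normal] (h1 : V ≠ ⊥) (h2 : Nat.card V ≤ p ^ 2) :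
    (centralizer (V : Set P)).index < Nat.card V := by
  classical
  have hp : p.Prime := Fact.out
  obtain ⟨w, hw, hc⟩ : ∃ w ∈ V, centralizer ({w} : Set P) ≤ centralizer (V : Set P) := by
    by_cases h0 : V ≤ center P
    · exact ⟨1, one_mem _, fun g _ => mem_centralizer_iff.2 fun v hv => (mem_center_iff.1 (h0 hv) g).symm⟩
    obtain ⟨w, hw, hw'⟩ := SetLike.not_le_iff_exists.1 h0
    refine ⟨w, hw, fun g hg => ?_⟩
    have n0 : V ⊓ center P ≠ ⊥ := haveI := hP.isNilpotent; CfsgLib.Core.inf_center_ne_bot_of_isNilpotent h1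
    have e : (V ⊓ center P) ⊔ zpowers w = V := by
      have l1 : V ⊓ center P < (V ⊓ center P) ⊔ zpowers w := lt_of_le_of_ne le_sup_left fun e =>
        hw' (e.ge (mem_sup_right (mem_zpowers w))).2
      have l2 : (V ⊓ center P) ⊔ zpowers w ≤ V := sup_le inf_le_left (zpowers_le.2 hw)
      obtain ⟨a, ha⟩ := (IsPGroup.iff_card.1 (hP.to_subgroup (V ⊓ center P)))
      obtain ⟨b, hb⟩ := (IsPGroup.iff_card.1 (hP.to_subgroup ((V ⊓ center P) ⊔ zpowers w)))
      have a0 : a ≠ 0 := fun e => n0 (card_eq_one.1 (by rw [ha, e, pow_zero]))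
      have ab : a < b := by
        rw [← Nat.pow_lt_pow_iff_right hp.one_lt, ← ha, ← hb]
        exact lt_of_le_of_ne (card_le_of_le l1.le) fun e => l1.ne (eq_of_le_of_card_ge l1.le e.ge)
      exact eq_of_le_of_card_ge l2 (h2.trans (hb ▸ Nat.pow_le_pow_right hp.pos (by omega)))
    have : V ≤ centralizer ({g} : Set P) := e ▸ sup_le
      (fun v hv => mem_centralizer_singleton_iff.2 (mem_center_iff.1 hv.2 g).symm)
      (zpowers_le.2 (mem_centralizer_singleton_iff.2 (mem_centralizer_singleton_iff.1 hg).symm))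
    exact mem_centralizer_iff.2 fun v hv => mem_centralizer_singleton_iff.1 (this hv)
  refine lt_of_le_of_lt (Nat.le_of_dvd (Nat.pos_of_ne_zero index_ne_zero_of_finite) (index_dvd_of_le hc)) ?_
  have e : (centralizer ({w} : Set P)).index = (MulAction.orbit (ConjAct P) w).ncard := by
    rw [← MulAction.index_stabilizer, centralizer_eq_comap_stabilizer]
    exact index_comap_of_surjective _ ConjAct.toConjAct.surjective
  rw [e, ← SetLike.coe_sort_coe V, Nat.card_coe_set_eq]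
  refine Set.ncard_lt_ncard ⟨?_, fun hs => ?_⟩
  · rintro _ ⟨g, rfl⟩
    exact (inferInstance : V.Normal).conj_mem w hw _
  obtain ⟨g, hg⟩ := hs (one_mem V)
  obtain rfl : w = 1 := by simpa [ConjAct.smul_def] using hg
  exact h1 (eq_bot_iff.2 fun v hv => by
    obtain ⟨g, hg⟩ := hs hv
    simpa [ConjAct.smul_def] using hg.symm)

theorem hy_card {X : Type*} [Group X] (A B : Subgroup X) :
    Nat.card (A ⊓ B : Subgroup X) * A.relIndex B = Nat.card B := by
  rw [← inf_relIndex_right, ← relIndex_bot_left, ← relIndex_bot_left,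
    relIndex_mul_relIndex _ _ _ bot_le inf_le_right]



theorem agt {X : Type*} [Group X] [Finite X] (h : Hyp X) {p : ℕ} [Fact p.Prime]
    {V U : Subgroup X} [V.Normal] (hV : IsPGroup p V) (hc : IsMulCommutative V) (h1 : V ≠ ⊥)
    (hU : U.index = Nat.card V) (hCU : centralizer (V : Set X) ≤ U) : False := by
  have hp : p.Prime := Fact.out
  obtain ⟨P, hP⟩ := hV.exists_le_sylow
  have k1 : Nat.card V ≤ (centralizer (V : Set X)).relIndex P := by
    obtain ⟨a, ha⟩ := IsPGroup.iff_card.1 hV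
    obtain ⟨b, hb⟩ := IsPGroup.iff_card.1 (P.2.to_le (inf_le_right : U ⊓ P ≤ P))
    obtain ⟨c, hc⟩ := IsPGroup.iff_card.1 P.2
    have d : p ^ (b + a) ∣ Nat.card X := by
      rw [pow_add, ← ha, ← hb, ← hU, ← U.card_mul_index]
      exact Nat.mul_dvd_mul_right (card_dvd_of_le inf_le_left) _
    have d2 := Nat.le_of_dvd Nat.card_pos (P.pow_dvd_card_of_pow_dvd_card d)
    have e := hy_card U (P : Subgroup X)
    have l : U.relIndex P ≤ (centralizer (V : Set X)).relIndex P :=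
      Nat.le_of_dvd (Nat.pos_of_ne_zero index_ne_zero_of_finite) (relIndex_dvd_of_le_left _ hCU)
    refine le_trans (Nat.le_of_mul_le_mul_left ?_ (Nat.card_pos (α := (U ⊓ P : Subgroup X)))) l
    rwa [e, hb, ha, ← pow_add]
  have k0 : 1 < Nat.card V := (one_lt_card_iff_ne_bot V).2 h1
  have VC : V ≤ centralizer (V : Set X) := fun v hv => mem_centralizer_iff.2 fun w hw =>
    congrArg Subtype.val (hc.1.1 ⟨w, hw⟩ ⟨v, hv⟩)
  by_cases h6 : p ^ 6 ∣ Nat.card X
  · have := h p hp h6 P P.2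
    rw [relIndex_eq_one.2 fun v hv => mem_centralizer_iff.2 fun w hw =>
      congrArg Subtype.val (this.1.1 ⟨w, hP hw⟩ ⟨v, hv⟩)] at k1
    omega
  have k2 : Nat.card V ≤ p ^ 2 := by
    obtain ⟨a, ha⟩ := IsPGroup.iff_card.1 hV
    obtain ⟨c, hc⟩ := IsPGroup.iff_card.1 P.2
    have c5 : c ≤ 5 := by
      by_contra! c6
      exact h6 ((pow_dvd_pow p c6).trans (hc ▸ card_subgroup_dvd_card _))
    have e := hy_card (centralizer (V : Set X)) (P : Subgroup X)
    have l := Nat.mul_le_mul (card_le_of_le (le_inf VC hP)) k1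
    rw [e, ha, hc, ← pow_add, Nat.pow_le_pow_iff_right hp.one_lt] at l
    exact ha ▸ Nat.pow_le_pow_right hp.pos (by omega)
  have cV : Nat.card (V.subgroupOf P) = Nat.card V := Nat.card_congr (subgroupOfEquivOfLe hP).toEquiv
  have := index_lt P.2 (V.subgroupOf P) (fun e => by rw [e, card_bot] at cV; omega) (cV ▸ k2)
  have e : centralizer (V.subgroupOf P : Set P) = (centralizer (V : Set X)).subgroupOf P := by
    ext g
    simp only [mem_subgroupOf, mem_centralizer_iff, SetLike.mem_coe]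
    exact ⟨fun k v hv => congrArg Subtype.val (k ⟨v, hP hv⟩ hv), fun k v hv => Subtype.ext (k v hv)⟩
  rw [e, cV] at this
  exact absurd k1 (not_le.2 this)

end CfsgLib.FRS
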