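import Mathlib
import Cfsg.Agent.Lib.FRS.Hyp

/-! FRS package CA: an abelian minimal normal subgroup `K/Z`. -/

set_option autoImplicit false

namespace CfsgLib.FRS

open Cfsg Subgroup CfsgLib.Char CfsgLib.ChDeg
open scoped commutatorElement

section
variable {H : Type*} [Group H] {Z : Subgroup H} [Z.Normal]

theorem ca_mem {K : Subgroup H} {n : H} :
    n ∈ (centralizer ((K.map (QuotientGroup.mk' Z) : Subgroup (H ⧸ Z)) : Set (H ⧸ Z))).comap
      (QuotientGroup.mk' Z) ↔ ∀ k ∈ K, ⁅n, k⁆ ∈ Z := by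
  rw [mem_comap, mem_centralizer_iff]
  constructor
  · intro h k hk
    rw [← QuotientGroup.eq_one_iff, ← QuotientGroup.mk'_apply, map_commutatorElement,
      commutatorElement_eq_one_iff_mul_comm]
    exact (h _ ⟨k, hk, rfl⟩).symm
  · rintro h _ ⟨k, hk, rfl⟩
    have := h k hk
    rw [← QuotientGroup.eq_one_iff, ← QuotientGroup.mk'_apply, map_commutatorElement,
      commutatorElement_eq_one_iff_mul_comm] at this
    exact this.symm

/-- `n ↦ lam ⁅n, k⁆`. -/
def caHom (hZ : Z ≤ center H) (lam : Z →* ℂˣ) (N : Subgroup H) (k : H)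
    (hk : ∀ n ∈ N, ⁅n, k⁆ ∈ Z) : N →* ℂˣ :=
  MonoidHom.mk' (fun n => lam ⟨⁅(n : H), k⁆, hk n n.2⟩) fun a b => by
    rw [mul_comm, ← map_mul]
    congr 1
    apply Subtype.ext
    have := mem_center_iff.1 (hZ (hk b b.2)) a
    change ⁅(a : H) * b, k⁆ = ⁅(b : H), k⁆ * ⁅(a : H), k⁆
    calc ⁅(a : H) * b, k⁆ = (a * ⁅(b : H), k⁆) * (a : H)⁻¹ * ⁅(a : H), k⁆ := by
          simp only [commutatorElement_def]; group
      _ = _ := by rw [this]; group

end

theorem caseA {H : Type*} [Group H] [Finite H] {Z : Subgroup H} [Z.Normal] {χ : H → ℂ}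
    {lam : Z →* ℂˣ} {e : ℕ} (h : CT Z χ lam e) (hy : Hyp (H ⧸ Z)) {K : Subgroup H} [K.Normal]
    (hZK : Z < K) (hmin : ∀ M : Subgroup H, M.Normal → Z ≤ M → M ≤ K → M = Z ∨ M = K)
    {p : ℕ} [Fact p.Prime] (hp : IsPGroup p (K.map (QuotientGroup.mk' Z))) (hab : ⁅K, K⁆ ≤ Z) :
    ∃ T : Subgroup H, K ≤ T ∧ FR T (K.subgroupOf T) ∧
      (Group.IsSolvable T → Group.IsSolvable H) := by
  classical
  have := Fintype.ofFinite H
  have hχ := isCharacter_of_isIrr h.irr
  have he0 : (e : ℂ) ≠ 0 := Nat.cast_ne_zero.2 h.pos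
  obtain ⟨θ, hθ, hne⟩ := exists_irr_constituent (isCharacter_restrict K hχ)
    (by simpa [h.one] using h.pos)
  obtain ⟨m, hm0, hm, hdeg⟩ := exists_deg_clifford K h.irr hθ hne
  obtain ⟨T, hT⟩ : ∃ T, T = inertia K θ := ⟨_, rfl⟩
  have hθc := isClassFunction_of_isIrr hθ
  have hKT : K ≤ T := hT ▸ le_inertia K hθc
  have hsq : m ^ 2 * T.index = K.index := hT ▸
    FullRam.sq_mul_index K h.irr (fun g hg => h.vanish fun hz => hg (hZK.le hz)) hθ hm hm0.ne'
  have ht0 : T.index ≠ 0 := index_ne_zero_of_finite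
  obtain ⟨ψ, hψ, -, hψm⟩ := clifford_corr K T hKT hθ hT h.irr hne
  refine ⟨T, hKT, ⟨ψ, fun z => θ (subgroupOfEquivOfLe hKT z), m, hψ,
    isIrr_comp_mulEquiv (subgroupOfEquivOfLe hKT) hθ, ?_, fun z => ?_⟩, fun hsol => ?_⟩
  · exact Nat.eq_of_mul_eq_mul_right (Nat.pos_of_ne_zero ht0)
      (hsq.trans (relIndex_mul_index hKT).symm)
  · have := congrFun (clifford_invariant_le K T hKT hψ hθ hT.le (hψm ▸ hne))
      (subgroupOfEquivOfLe hKT z)
    rw [hψm, hm] at this
    exact this
  -- values on `Z`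
  have hcz : ∀ (z : Z) (g : H), conjChar K g θ ⟨z, hZK.le z.2⟩ = θ ⟨z, hZK.le z.2⟩ := fun z g => by
    rw [conjChar_apply]
    congr 1
    apply Subtype.ext
    change g * z * g⁻¹ = z
    rw [mem_center_iff.1 (h.central z.2) g, mul_inv_cancel_right]
  have hres : ∀ z : Z, χ z = (m * T.index : ℕ) * θ ⟨z, hZK.le z.2⟩ := fun z => by
    have := congrFun (clifford K h.irr hθ hne) ⟨z, hZK.le z.2⟩
    rw [hm, Pi.smul_apply, Finset.sum_apply, Finset.sum_congr rfl
      (g := fun _ => θ ⟨z, hZK.le z.2⟩), Finset.sum_const, card_conjSet, ← hT] at this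
    · rw [this]; simp [mul_assoc]
    · intro φ hφ
      obtain ⟨g, rfl⟩ := (mem_conjSet K).1 hφ
      exact hcz z g
  have hmt : ((m * T.index : ℕ) : ℂ) ≠ 0 := Nat.cast_ne_zero.2 (mul_ne_zero hm0.ne' ht0)
  have hθz : ∀ (z : Z) (k : K), θ (⟨z, hZK.le z.2⟩ * k) = ((lam z : ℂˣ) : ℂ) * θ k := fun z k => by
    have hc : (⟨z, hZK.le z.2⟩ : K) ∈ center K :=
      mem_center_iff.2 fun g => Subtype.ext (mem_center_iff.1 (h.central z.2) g)
    rw [char_mul_of_norm_eq (isCharacter_of_isIrr hθ) (norm_irr_of_mem_center hθ hc)]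
    congr 1
    have h1 := hres z
    have h2 := hres 1
    rw [h.val] at h1 h2
    rw [map_one, Units.val_one, mul_one] at h2
    have h3 : θ 1 ≠ 0 := irr_one_ne_zero hθ
    rw [div_eq_iff h3]
    apply mul_left_cancel₀ hmt
    rw [← h1, h2]
    change _ = _ * (_ * θ ⟨((1 : Z) : H), _⟩)
    ring
  set N := (centralizer ((K.map (QuotientGroup.mk' Z) : Subgroup (H ⧸ Z)) : Set (H ⧸ Z))).comap
    (QuotientGroup.mk' Z) with hN
  have hNn : N.Normal := Normal.comap inferInstance _
  have hNK : ∀ k ∈ K, ∀ n ∈ N, ⁅n, k⁆ ∈ Z := fun k hk n hn => ca_mem.1 hn k hk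
  have hCT : centralizer (K : Set H) ≤ T := fun g hg => by
    rw [hT, mem_inertia']
    intro k
    congr 1
    apply Subtype.ext
    change g * k * g⁻¹ = k
    rw [← mem_centralizer_iff.1 hg k k.2, mul_inv_cancel_right]
  have hφ : ∀ (k : K) (n : N), caHom h.central lam N k (hNK k k.2) n = 1 → (n : H) * k = k * n :=
    fun k n hn => commutatorElement_eq_one_iff_mul_comm.1
      (congrArg Subtype.val ((injective_iff_map_eq_one lam).1 h.inj _ hn))
  rcases hmin (K ⊓ centralizer (N : Set H)) inferInstance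
    (le_inf hZK.le (h.central.trans (center_le_centralizer _))) inf_le_left with hM | hM
  · -- `H = T N`
    have hF : ∑ n : N, conjChar K n θ =
        ((Nat.card N : ℂ) / (m * T.index : ℕ)) • fun k : K => χ k := by
      funext k
      rw [Finset.sum_apply, Pi.smul_apply, smul_eq_mul]
      by_cases hk : (k : H) ∈ Z
      · have h1 : ∀ n : N, conjChar K n θ k = θ k := fun n => hcz ⟨k, hk⟩ n
        have h2 : χ k = (m * T.index : ℕ) * θ k := hres ⟨k, hk⟩
        rw [Finset.sum_congr rfl fun n _ => h1 n, h2, Finset.sum_const,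
          Finset.card_univ, Nat.card_eq_fintype_card, nsmul_eq_mul]
        field_simp
      · have h1 : ∀ n : N, conjChar K n θ k =
            ((caHom h.central lam N k (hNK k k.2) n : ℂˣ) : ℂ) * θ k := fun n => by
          rw [conjChar_apply]
          refine (congrArg θ (Subtype.ext ?_)).trans (hθz ⟨⁅(n : H), k⁆, hNK k k.2 n n.2⟩ k)
          change (n : H) * k * (n : H)⁻¹ = ⁅(n : H), (k : H)⁆ * k
          simp only [commutatorElement_def]; group
        have h2 : (Units.coeHom ℂ).comp (caHom h.central lam N k (hNK k k.2)) ≠ 1 := fun h2 => by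
          refine hk (hM ▸ ⟨k.2, mem_centralizer_iff.2 fun n hn => hφ k ⟨n, hn⟩ ?_⟩)
          have h3 := DFunLike.congr_fun h2 ⟨n, hn⟩
          exact Units.val_injective h3
        have h3 := sum_hom_units_eq_zero _ h2
        rw [Finset.sum_congr rfl fun n _ => h1 n, ← Finset.sum_mul, h.vanish hk, mul_zero]
        exact mul_eq_zero_of_left h3 _
    have hTN : ∀ g : H, ∃ n ∈ N, g * n⁻¹ ∈ T := fun g => by
      have h1 : classInner (∑ n : N, conjChar K n θ) (conjChar K g θ) ≠ 0 := by
        rw [hF, classInner_smul_left, classInner_res_conjChar K g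
          (isClassFunction_of_isIrr h.irr)]
        exact mul_ne_zero (div_ne_zero (Nat.cast_ne_zero.2 Nat.card_pos.ne') hmt) hne
      rw [classInner_sum_left] at h1
      obtain ⟨n, -, hn⟩ := Finset.exists_ne_zero_of_sum_ne_zero h1
      refine ⟨n, n.2, hT ▸ (conjChar_eq_iff K).1 ?_⟩
      by_contra h2
      exact hn (classInner_irr_of_ne (isIrr_conjChar K _ hθ) (isIrr_conjChar K _ hθ) (Ne.symm h2))
    have hc : ∀ x ∈ commutator N, (x : H) ∈ T := fun x hx =>
      hCT (mem_centralizer_iff.2 fun k hk =>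
        (hφ ⟨k, hk⟩ x (Abelianization.commutator_subset_ker _ hx)).symm)
    have h1 : Group.IsSolvable (commutator N) :=
      solvable_of_solvable_injective
        (f := (N.subtype.comp (commutator N).subtype).codRestrict T fun x => hc x x.2)
        fun a b hab => Subtype.ext (Subtype.ext (congrArg (fun t : T => (t : H)) hab))
    have h2 : Group.IsSolvable N :=
      solvable_of_ker_le_range (commutator N).subtype Abelianization.of (by
        rw [Abelianization.ker_of, range_subtype])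
    have h3 : Group.IsSolvable (H ⧸ N) :=
      solvable_of_surjective (f := (QuotientGroup.mk' N).comp T.subtype) fun x => by
        obtain ⟨g, rfl⟩ := QuotientGroup.mk'_surjective N x
        obtain ⟨n, hn, hg⟩ := hTN g
        exact ⟨⟨_, hg⟩, QuotientGroup.eq.2 (by simpa using hn)⟩
    exact solvable_of_ker_le_range N.subtype (QuotientGroup.mk' N) (by
      rw [QuotientGroup.ker_mk', range_subtype])
  · exfalso
    have hKC : K ≤ centralizer (N : Set H) := hM ▸ inf_le_right
    have hKN : K ≤ N := fun k hk => ca_mem.2 fun k' hk' => hab (commutator_mem_commutator hk hk')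
    have hNT : N ≤ T := (le_centralizer_iff.1 hKC).trans hCT
    have hd : charDegree θ = 1 := (deg_eq_one_iff_commutator_le hθ).2 (by
      rw [_root_.commutator_def, commutator_le]
      intro a _ b _
      rw [commutatorElement_eq_one_iff_mul_comm.2
        (Subtype.ext (mem_centralizer_iff.1 (hKC b.2) a (hKN a.2)))]
      exact one_mem _)
    have he : charDegree χ = e := by
      have := deg_cast hχ
      rw [h.one] at this
      exact_mod_cast this
    rw [he, hd, ← hT, mul_one] at hdeg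
    have hV : Nat.card (K.map (QuotientGroup.mk' Z)) = Z.relIndex K := by
      rw [← relIndex_ker, QuotientGroup.ker_mk']
    have ht : T.index = Z.relIndex K := by
      have h1 := h.sq
      rw [← relIndex_mul_index hZK.le, ← hsq, hdeg] at h1
      exact Nat.eq_of_mul_eq_mul_right (Nat.pos_of_ne_zero (mul_ne_zero (pow_ne_zero 2 hm0.ne') ht0))
        (by rw [← h1]; ring)
    refine agt hy (U := T.map (QuotientGroup.mk' Z)) hp ?_ ?_ ?_ ?_
    · refine ⟨⟨?_⟩⟩
      rintro ⟨_, a, ha, rfl⟩ ⟨_, b, hb, rfl⟩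
      apply Subtype.ext
      exact (mem_centralizer_iff.1 (hKN hb) _ ⟨a, ha, rfl⟩)
    · rw [Ne, Subgroup.map_eq_bot_iff, QuotientGroup.ker_mk']
      exact hZK.not_ge
    · rw [index_map_eq _ (QuotientGroup.mk'_surjective Z)
        (by rw [QuotientGroup.ker_mk']; exact hZK.le.trans hKT), hV, ht]
    · intro x hx
      obtain ⟨g, rfl⟩ := QuotientGroup.mk'_surjective Z x
      exact ⟨g, hNT hx, rfl⟩

end CfsgLib.FRS
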