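import Mathlib
import Cfsg.Agent.Lib.FRS.Defs
import Cfsg.Agent.S0063
import Cfsg.Agent.S0113
import Cfsg.Agent.Lib.ChDeg.Deg

/-! FRS package DM: DeMeyer–Janusz for central type, and the Sylow 2-subgroups of `H ⧸ Z`.

`dmj`: let `R ≥ Z` with `[R : Z] = p^a` (`Z.relIndex R`) and `k = R.index` prime to `p`; then
`e² = [H:Z] = k p^a` (`relIndex_mul_index`). `FullRam.exists_irr` in the group `R` for
`Z.subgroupOf R` (`h.hom.res`) gives `χ|R = c ψ`, `ψ ∈ Irr R`, `c² = k`. `d := charDegree ψ`,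
`e = c d`, so `d² = p^a`. If `x ∈ R` centralises `R` then `‖ψ x‖ = ‖ψ 1‖ ≠ 0`
(`norm_irr_of_mem_center`), so `χ x ≠ 0` and `x ∈ Z` (`CT.vanish`). `deg_le_index_of_comm`
bounds `d` by the index of abelian subgroups.
`dmj_center`: `R = P ⊔ Z` (`Z.relIndex (P ⊔ Z) = Z.relIndex P`, `relIndex_sup_right`, divides `|P|`;
`R.index ∣ P.index`); `x` centralises `R` as `Z` is central.
`small_of_ct`: `T ≤ S` Sylow 2-subgroup of `H ⧸ Z`; it suffices that `S` is abelian or has order
`16` and `⁅⊤,⊤⁆ ≤ center` (both pass to the subgroup `T`). If `2^6 ∣ |H ⧸ Z|` use `hy`. Else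
`R = S.comap (mk' Z)`, `Z.relIndex R = |S| = 2^a`, `a ≤ 5`, `R.index = S.index` odd, `d² = 2^a`, so
`a ∈ {0,2,4}`; `a ≤ 2` gives `S` abelian. `a = 4`, `d = 4`: the class of `S` is `≤ 3` (S0063); if it
is `3`, S0113 gives a cyclic `C` of index 2 in `S`, its preimage `A` in `H` is abelian (cyclic over
the central `Z`) with `A.relIndex R = 2 < 4`. So the class is `≤ 2`, i.e. `⁅⊤,⊤⁆ ≤ center`
(`lowerCentralSeries S 2 = ⊥`). -/

set_option autoImplicit false

namespace CfsgLib.FRS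

open Cfsg Subgroup

variable {H : Type*} [Group H] [Finite H] {Z : Subgroup H} {χ : H → ℂ} {lam : Z →* ℂˣ} {e : ℕ}

theorem dmj (h : CT Z χ lam e) {p a : ℕ} (hp : p.Prime) {R : Subgroup H} (hZ : Z ≤ R)
    (ha : Z.relIndex R = p ^ a) (hk : ¬ p ∣ R.index) :
    (∀ x ∈ R, (∀ y ∈ R, x * y = y * x) → x ∈ Z) ∧ ∃ d : ℕ, d ^ 2 = p ^ a ∧
      ∀ A : Subgroup H, A ≤ R → (∀ x ∈ A, ∀ y ∈ A, x * y = y * x) → d ≤ A.relIndex R := by
  haveI := Fintype.ofFinite R
  haveI := h.normal
  have he : e ^ 2 = R.index * p ^ a := by rw [h.sq, ← ha, mul_comm, relIndex_mul_index hZ]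
  obtain ⟨ψ, c, hψ, hc, e1⟩ := FullRam.exists_irr hp
    (CfsgLib.Char.isCharacter_restrict R (CfsgLib.Char.isCharacter_of_isIrr h.irr)) (h.hom.res hZ) ha he hk
  have e2 : ∀ x : R, χ x = c * ψ x := fun x => congrFun e1 x
  have c0 : c ≠ 0 := by
    rintro rfl
    exact index_ne_zero_of_finite (hc.symm.trans (by simp))
  have d1 := ChDeg.deg_cast (CfsgLib.Char.isCharacter_of_isIrr hψ)
  have ed : e = c * charDegree ψ := by
    have := e2 1
    rw [OneMemClass.coe_one, h.one, ← d1] at this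
    exact_mod_cast this
  refine ⟨fun x hx hc' => by_contra fun n => ?_, charDegree ψ, ?_, fun A hA hc' => ?_⟩
  · have h1 := CfsgLib.Char.norm_irr_of_mem_center hψ (g := ⟨x, hx⟩)
      (mem_center_iff.2 fun y => Subtype.ext (hc' y y.2).symm)
    have h2 := e2 ⟨x, hx⟩
    rw [h.vanish n, eq_comm, mul_eq_zero, Nat.cast_eq_zero] at h2
    rw [h2.resolve_left c0, norm_zero, eq_comm, norm_eq_zero, ← d1, Nat.cast_eq_zero] at h1
    exact h.pos (by rw [ed, h1, mul_zero])
  · rw [ed, mul_pow, hc] at he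
    exact Nat.eq_of_mul_eq_mul_left (Nat.pos_of_ne_zero index_ne_zero_of_finite) he
  · exact ChDeg.deg_le_index_of_comm hψ (A.subgroupOf R) fun x hx y hy => Subtype.ext (hc' _ hx _ hy)

theorem dmj_center (h : CT Z χ lam e) {p : ℕ} [Fact p.Prime] (P : Sylow p H) :
    ∀ x ∈ (P : Subgroup H), (∀ y ∈ (P : Subgroup H), x * y = y * x) → x ∈ Z := by
  intro x hx hc
  haveI := h.normal
  obtain ⟨a, ha⟩ := (Nat.dvd_prime_pow (Fact.out : p.Prime)).1
    ((relIndex_dvd_card Z (P : Subgroup H)).trans (dvd_of_eq (IsPGroup.iff_card.1 P.2).choose_spec))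
  refine (dmj h (Fact.out : p.Prime) (R := P ⊔ Z) le_sup_right ((relIndex_sup_right _ _).trans ha.2)
    (fun d => P.not_dvd_index (d.trans (index_dvd_of_le le_sup_left)))).1 x (mem_sup_left hx) fun y hy => ?_
  have : (P : Subgroup H) ⊔ Z ≤ centralizer {x} := sup_le
    (fun y hy => mem_centralizer_singleton_iff.2 (hc y hy).symm)
    (fun z hz => mem_centralizer_singleton_iff.2 (mem_center_iff.1 (h.central hz) x).symm)
  exact (mem_centralizer_singleton_iff.1 (this hy)).symm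

theorem dm_small {X : Type*} [Group X] [Finite X] {S T : Subgroup X} (hT : T ≤ S) (h : Small S) :
    Small T := by
  rcases h with h | ⟨h1, h2⟩
  · exact .inl ⟨⟨fun a b => Subtype.ext (congrArg Subtype.val (h.1.1 ⟨a, hT a.2⟩ ⟨b, hT b.2⟩) :)⟩⟩
  · refine .inr ⟨(card_dvd_of_le hT).trans h1, commutator_le.2 fun a _ b _ => mem_center_iff.2 fun c => ?_⟩
    have := mem_center_iff.1 (h2 (commutator_mem_commutator (mem_top (inclusion hT a))
      (mem_top (inclusion hT b)))) (inclusion hT c)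
    exact inclusion_injective hT (by simpa only [map_mul, map_commutatorElement] using this)



theorem small_of_ct [Z.Normal] (h : CT Z χ lam e) (hy : Hyp (H ⧸ Z)) (T : Subgroup (H ⧸ Z))
    (hT : IsPGroup 2 T) : Small T := by
  obtain ⟨S, hS⟩ := hT.exists_le_sylow
  refine dm_small hS ?_
  by_cases h6 : 2 ^ 6 ∣ Nat.card (H ⧸ Z)
  · exact .inl (hy 2 Nat.prime_two h6 S S.2)
  obtain ⟨a, ha⟩ := IsPGroup.iff_card.1 S.2
  have a5 : a ≤ 5 := by
    by_contra! c6
    exact h6 ((pow_dvd_pow 2 c6).trans (ha ▸ card_subgroup_dvd_card _))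
  have surj := QuotientGroup.mk'_surjective Z
  have hZ : ∀ A : Subgroup (H ⧸ Z), Z ≤ A.comap (QuotientGroup.mk' Z) := fun A z hz => by
    rw [mem_comap, QuotientGroup.mk'_apply, (QuotientGroup.eq_one_iff z).2 hz]
    exact one_mem _
  have ri : ∀ A : Subgroup (H ⧸ Z), (A.comap (QuotientGroup.mk' Z)).relIndex
      ((S : Subgroup (H ⧸ Z)).comap (QuotientGroup.mk' Z)) = A.relIndex S := fun A => by
    rw [relIndex_comap, map_comap_eq_self_of_surjective surj]
  obtain ⟨-, d, hd, hA⟩ := dmj h Nat.prime_two (a := a) (hZ S) (by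
    have := ri ⊥
    rwa [MonoidHom.comap_bot, QuotientGroup.ker_mk', relIndex_bot_left, ha] at this)
    (by rw [index_comap_of_surjective _ surj]; exact S.not_dvd_index)
  by_cases a2 : a ≤ 2
  · refine .inl ?_
    rcases Nat.lt_or_ge a 2 with a1 | a1
    · exact (isCyclic_of_card_dvd_prime (p := 2) (ha ▸ (pow_dvd_pow 2 (by omega : a ≤ 1)))).isMulCommutative
    · exact IsPGroup.isMulCommutative_of_card_eq_prime_sq (p := 2) (by rw [ha, show a = 2 by omega])
  have d6 : d ≤ 5 := by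
    have : d ^ 2 ≤ 2 ^ 5 := hd ▸ Nat.pow_le_pow_right two_pos a5
    nlinarith
  obtain ⟨rfl, rfl⟩ : a = 4 ∧ d = 4 := by
    have : 3 ≤ a := by omega
    interval_cases a <;> interval_cases d <;> simp_all
  haveI := S.2.isNilpotent
  have c3 := Cfsg.Agent.S0063.result 2 4 ha (by norm_num)
  have c2 : Group.nilpotencyClass S ≤ 2 := by
    by_contra! c
    obtain ⟨C, hC, i2⟩ := Cfsg.Agent.S0113.result 4 (by norm_num) ha (by omega)
    have := hA ((C.map (S : Subgroup (H ⧸ Z)).subtype).comap (QuotientGroup.mk' Z))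
      (comap_mono (map_subtype_le C)) ?_
    · rw [ri, relIndex, ← comap_subtype, comap_map_eq_self_of_injective (subtype_injective _), i2] at this
      omega
    obtain ⟨g, hg⟩ := hC.exists_generator
    obtain ⟨g', e⟩ := surj (g : S)
    have k : ∀ x ∈ (C.map (S : Subgroup (H ⧸ Z)).subtype).comap (QuotientGroup.mk' Z),
        ∃ n : ℤ, ∃ z ∈ Z, x = g' ^ n * z := by
      rintro x ⟨y, hy, e'⟩
      obtain ⟨n, hn⟩ := mem_zpowers_iff.1 (hg ⟨y, hy⟩)
      refine ⟨n, (g' ^ n)⁻¹ * x, QuotientGroup.eq.1 ?_, by group⟩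
      show QuotientGroup.mk' Z _ = QuotientGroup.mk' Z _
      rw [map_zpow, e, ← e']
      exact congrArg (fun c : C => ((c : S) : H ⧸ Z)) hn
    intro x hx y hy
    obtain ⟨n, z, hz, rfl⟩ := k x hx
    obtain ⟨m, w, hw, rfl⟩ := k y hy
    have c1 : ∀ u, Commute u z := mem_center_iff.1 (h.central hz)
    have c2 : ∀ u, Commute u w := mem_center_iff.1 (h.central hw)
    exact (((Commute.zpow_zpow_self g' n m).mul_right (c2 _)).mul_left (c1 _).symm).eq
  refine .inr ⟨by rw [ha]; norm_num, commutator_le.2 fun a _ b _ => mem_center_iff.2 fun c => ?_⟩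
  have := (Subgroup.lowerCentralSeries_eq_bot_iff_nilpotencyClass_le.2 c2).le
    (commutator_mem_commutator (commutator_mem_commutator (mem_top a) (mem_top b)) (mem_top c))
  exact (commutatorElement_eq_one_iff_mul_comm.1 (mem_bot.1 this)).symm

end CfsgLib.FRS
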