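import Mathlib
import Cfsg.Agent.Lib.Comp.Component
import Cfsg.Agent.Lib.Transfer.Focal
import Cfsg.Agent.Lib.Core.MinNormal

/-! FRS package LC: Sylow subgroups of components of a group of central type are non-abelian.

Proof. Suppose `Q` abelian. `Q₀ = Q.map L.subtype ≤ P` Sylow in `H` (`IsPGroup.exists_le_sylow`);
`P ⊓ L = Q₀` by maximality of `Q` (`(P ⊓ L).subgroupOf L` is a `p`-subgroup containing `Q`), and
`Q₀ ≠ 1`. `N = P ⊓ N_H(L)` is a `p`-group, `Q₀ ≤ N` is normal in `N`, so there is `1 ≠ x ∈ Q₀`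
centralised by `N`. Let `s` be the finite set `{g x g⁻¹ | g ∈ P}`. If `y = g x g⁻¹ ≠ x` (`g ∈ P`)
then `g ∉ N_H(L)`, the component `L^g ∋ y` differs from `L` (`comp_map_conj`), so `y` centralises
`L` (`comp_le_centralizer_of_ne`). Hence (conjugating) the elements of `s` commute pairwise;
`z := s.noncommProd id _ ∈ P` (or the product in the commutative group `closure s`). Conjugation by
`g ∈ P` permutes `s`, so `z` centralises `P` and `z ∈ Z ≤ Z(H)` by `hd`. `z = x * y` with
`y = ∏ (s.erase x) ∈ C(L)`, so `x ∈ C(L)`, i.e. `x ∈ Q ⊓ L' ⊓ Z(L) ≤ ⁅Q, Q⁆ = 1` in the perfect group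
`L` (`Transfer.inf_commutator_inf_center_le_of_hall`), a contradiction. -/

set_option autoImplicit false

namespace CfsgLib.FRS

open Cfsg Subgroup

theorem lemC {H : Type*} [Group H] [Finite H] {Z : Subgroup H} (hZ : Z ≤ center H) {p : ℕ}
    [Fact p.Prime]
    (hd : ∀ P : Sylow p H, ∀ x ∈ (P : Subgroup H), (∀ y ∈ (P : Subgroup H), x * y = y * x) → x ∈ Z)
    {L : Subgroup H} (hL : IsComponent L) (hp : p ∣ Nat.card L) (Q : Sylow p L) :
    ¬ IsMulCommutative Q := by
  classical
  intro hQ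
  obtain ⟨w, wL, wo⟩ := Core.exists_mem_orderOf_eq_of_dvd_card (Fact.out : p.Prime) hp
  obtain ⟨P, hP⟩ := (IsPGroup.of_card (G := zpowers w) (n := 1)
    (by rw [Nat.card_zpowers, wo, pow_one])).exists_le_sylow
  let N : Subgroup H := P ⊓ normalizer (L : Set H)
  have : (L.subgroupOf N).Normal := ⟨fun a ha g => (mem_normalizer_iff.1 g.2.2 _).1 ha⟩
  have p1 := (Fact.out : p.Prime).one_lt
  obtain ⟨⟨x, xP, xN⟩, xL, xZ, xo⟩ := Core.exists_mem_center_orderOf_eq (G := N) (P.2.to_inf_left)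
    (N := L.subgroupOf N) fun e => by
      have h1 : (⟨w, hP (mem_zpowers w), le_normalizer wL⟩ : N) ∈ L.subgroupOf N := wL
      rw [e, mem_bot, Subtype.ext_iff] at h1
      rw [show w = 1 from h1, orderOf_one] at wo
      omega
  replace xL : x ∈ L := xL
  rw [← Subgroup.orderOf_coe] at xo
  replace xo : orderOf x = p := xo
  have key : ∀ g ∈ (P : Subgroup H), g * x * g⁻¹ ≠ x → g * x * g⁻¹ ∈ centralizer (L : Set H) := fun g hg ne => by
    refine Comp.comp_le_centralizer_of_ne (Comp.comp_map_conj hL g) hL (fun e => ne ?_) ⟨x, xL, rfl⟩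
    have gN : g ∈ normalizer (L : Set H) := mem_normalizer_iff.2 fun a => by
      conv_rhs => rw [← e]
      exact (mem_map_iff_mem (f := (MulAut.conj g).toMonoidHom) (MulAut.conj g).injective).symm
    exact mul_inv_eq_iff_eq_mul.2 (congrArg Subtype.val (mem_center_iff.1 xZ ⟨g, hg, gN⟩))
  let s : Finset H := (Set.toFinite {y | ∃ g ∈ (P : Subgroup H), g * x * g⁻¹ = y}).toFinset
  have ms : ∀ y, y ∈ s ↔ ∃ g ∈ (P : Subgroup H), g * x * g⁻¹ = y := fun y => Set.Finite.mem_toFinset _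
  have xs : x ∈ s := (ms x).2 ⟨1, one_mem _, by simp⟩
  have comm : (s : Set H).Pairwise (Function.onFun Commute id) := fun a ha b hb ne => by
    obtain ⟨g, hg, rfl⟩ := (ms a).1 ha
    obtain ⟨k, hk, rfl⟩ := (ms b).1 hb
    have := key (g⁻¹ * k) (mul_mem (inv_mem hg) hk) (fun e => ne (by
      conv_lhs => rw [← e]
      group)) x xL
    change g * x * g⁻¹ * (k * x * k⁻¹) = k * x * k⁻¹ * (g * x * g⁻¹)
    calc _ = g * (x * (g⁻¹ * k * x * (g⁻¹ * k)⁻¹)) * g⁻¹ := by group
      _ = _ := by rw [this]; group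
  have zP : s.noncommProd id comm ∈ (P : Subgroup H) := Subgroup.noncommProd_mem _ _ fun y hy => by
    obtain ⟨g, hg, rfl⟩ := (ms y).1 hy
    exact mul_mem (mul_mem hg xP) (inv_mem hg)
  have zZ := hZ (hd P _ zP fun g hg => by
    have e : s.map (MulAut.conj g).toEquiv.toEmbedding = s :=
      Finset.eq_of_subset_of_card_le (fun y hy => by
        obtain ⟨v, hv, rfl⟩ := Finset.mem_map.1 hy
        obtain ⟨k, hk, rfl⟩ := (ms v).1 hv
        exact (ms _).2 ⟨g * k, mul_mem hg hk, by simp [mul_assoc]⟩) (by rw [Finset.card_map])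
    have h1 : MulAut.conj g (s.noncommProd id comm) = s.noncommProd id comm := by
      rw [Finset.map_noncommProd]
      unfold Finset.noncommProd
      congr 1
      rw [Multiset.map_id]
      exact congrArg Finset.val e
    exact (mul_inv_eq_iff_eq_mul.1 h1).symm)
  have xC : x ∈ centralizer (L : Set H) := by
    rw [← Finset.mul_noncommProd_erase s xs] at zZ
    refine (mul_mem_cancel_right (Subgroup.noncommProd_mem _ _ fun y hy => ?_)).1 (center_le_centralizer _ zZ)
    obtain ⟨g, hg, rfl⟩ := (ms y).1 (Finset.mem_of_mem_erase hy)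
    exact key g hg (Finset.ne_of_mem_erase hy)
  have xc : (⟨x, xL⟩ : L) ∈ center L := mem_center_iff.2 fun g => Subtype.ext (xC g g.2)
  have := Core.normal_of_le_center (zpowers_le.2 xc)
  have xQ : (⟨x, xL⟩ : L) ∈ (Q : Subgroup L) := (IsPGroup.of_card (G := zpowers (⟨x, xL⟩ : L)) (n := 1)
    (by rw [Nat.card_zpowers, ← Subgroup.orderOf_coe, xo, pow_one])).le_sylow_of_normal Q (mem_zpowers _)
  have h1 := Transfer.inf_commutator_inf_center_le_of_hall Q.card_coprime_index
    ⟨⟨xQ, hL.2.1.commutator_eq_top ▸ mem_top _⟩, xc⟩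
  rw [commutator_eq_bot_iff_le_centralizer.2 (le_centralizer _), mem_bot, Subtype.ext_iff] at h1
  rw [show x = 1 from h1, orderOf_one] at xo
  omega

end CfsgLib.FRS
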