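import Mathlib
import Cfsg.Agent.Lib.Comp.Quasisimple
import Cfsg.Agent.Lib.Transfer.Abelian

/-! FRS package R8: lifting abelian Sylow subgroups through a central extension.

`comm_of_cyclic`: the image of `Q` in `L ⧸ Z(L)` is a Sylow subgroup (`Sylow.mapSurjective`), cyclic,
so `Q` is cyclic over a central subgroup (`commutative_of_cyclic_center_quotient`).

`r8`: `S = L ⧸ Z₀`, `Z₀ = Z(L)` cyclic. By conjugacy of Sylow subgroups (`Sylow.equiv`) we may take
`T` = image of `Q`; `D = T.comap (mk' Z₀) ≥ Q`, `⁅D, D⁆ ≤ Z₀`. `A = D ⊓ C(D) ≥ Z₀`, `Ā = A.map mk' ≤ T`,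
`|Ā| ∈ {1,2,4,8}`. If `|Ā| ∈ {4, 8}`, `D / A` is cyclic, so `D` is abelian, done.
`|Ā| = 2`: `N_S(T)` normalises `Ā` (a preimage `n` normalises `D`, hence `A`), so it centralises the
involution of `Ā`; but `T ⊓ C(N_S(T)) = 1` in the perfect group `S`
(`Transfer.inf_centralizer_normalizer_eq_bot`, or `commutator_inf_eq_of_abelian_sylow` with
`commutator_normalizer_inf_centralizer_of_abelian_sylow`). Contradiction.
`|Ā| = 1`, i.e. `A = Z₀`: for `x ∈ D`, `y ↦ ⁅x, y⁆` is a homomorphism `D → Z₀` (and also in `x`), trivial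
only for `x ∈ Z₀`. First `T` has exponent 2: `N_S(T)` has no fixed point `≠ 1` on `T`; if some square
of `T` is `≠ 1`, the subgroup of squares `T²` has order 2 or 4 (`|T²| ≤ 4`, as squaring has a kernel
`≠ 1`); if the order is 2 its involution is fixed; if it is 4 then `Ω₁(T)` = kernel of squaring has
order 2 and its involution is fixed. So `x² ∈ Z₀`, `⁅x, y⁆² = 1`, and `⁅x, y⁆ ∈ {1, ζ}`, `ζ` the unique
involution of the cyclic `Z₀`. The seven `t ≠ 1` of `T`: `B(t, u) = ⁅t̂, û⁆` is an alternating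
nondegenerate form on `T ≅ 𝔽₂³`. Fix `t ≠ 1`; `t^⊥` has order 4, `= {1, t, u, tu}`; `u^⊥` has order 4
and contains `1, t, u, tu`, so `t^⊥ = u^⊥`; two homomorphisms to `{1, ζ}` with the same kernel are
equal, so `B(tu, ·) = 1`, `tu = 1`, contradiction. (Any other argument is fine, e.g. counting: the
set of pairs `(t,u)`, `t ≠ u`, both `≠ 1`, `B(t,u) = 1`, or `det` of an alternating 3×3 matrix.) -/

set_option autoImplicit false

namespace CfsgLib.FRS

open Cfsg Subgroup
open scoped commutatorElement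

theorem comm_of_cyclic {L : Type*} [Group L] [Finite L] {p : ℕ} [Fact p.Prime]
    (h : ∀ T : Sylow p (L ⧸ center L), IsCyclic T) (Q : Sylow p L) : IsMulCommutative Q := by
  let π := QuotientGroup.mk' (center L)
  have hπ : Function.Surjective π := QuotientGroup.mk'_surjective _
  have := h (Q.mapSurjective hπ)
  let f : Q →* (Q.mapSurjective hπ) :=
    (π.comp (Q : Subgroup L).subtype).codRestrict _ (fun x => ⟨x, x.2, rfl⟩)
  refine f.isMulCommutative_of_isCyclic_of_ker_le_center (fun x hx => ?_)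
  have h1 : (x : L) ∈ center L := by
    rw [← QuotientGroup.eq_one_iff]; exact congrArg Subtype.val hx
  rw [mem_center_iff]
  exact fun y => Subtype.ext (mem_center_iff.1 h1 y)

section r8form

variable {T Z : Type*} [Group T] [CommGroup Z]

theorem r8_skew (B : T →* T →* Z) (hB : ∀ t, B t t = 1) {t u : T} (h : B t u = 1) :
    B u t = 1 := by
  have h1 := hB (t * u)
  simpa [hB, h] using h1

theorem r8_idx2 (B : T →* T →* Z) (hB : ∀ t, B t t = 1) {A R : Subgroup T}
    (hRA : (R.subgroupOf A).index = 2) (h : ∀ r ∈ R, ∀ a ∈ A, B r a = 1) :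
    ∀ a ∈ A, ∀ a' ∈ A, B a a' = 1 := by
  intro a ha a' ha'
  by_cases h1 : a ∈ R
  · exact h a h1 a' ha'
  by_cases h2 : a' ∈ R
  · exact r8_skew B hB (h a' h2 a ha)
  have h3 : (⟨a, ha⟩ : A)⁻¹ * ⟨a', ha'⟩ ∈ R.subgroupOf A := by
    rw [mul_mem_iff_of_index_two hRA, inv_mem_iff, mem_subgroupOf, mem_subgroupOf]
    exact iff_of_false h1 h2
  have h4 : B a (a⁻¹ * a') = 1 := r8_skew B hB (h _ h3 a ha)
  simpa [hB] using h4

theorem r8_index [IsCyclic Z] [Finite Z] {A : Type*} [Group A] (f : A →* Z)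
    (hf : ∀ a, f a ^ 2 = 1) : f.ker.index ∣ 2 := by
  rw [index_ker]
  have h1 : f.range ≤ (powMonoidHom 2 : Z →* Z).ker := by
    rintro _ ⟨a, rfl⟩; exact hf a
  refine (card_dvd_of_le h1).trans ?_
  rw [IsCyclic.card_powMonoidHom_ker]
  exact Nat.gcd_dvd_right _ _

theorem r8_form [IsCyclic Z] [Finite Z] [Finite T] (h8 : Nat.card T = 8) (B : T →* T →* Z)
    (hB : ∀ t, B t t = 1) : (∀ t u, B t u = 1) ∨ Nat.card B.ker = 2 := by
  have hd : Nat.card B.ker ∣ 2 ^ 3 := by
    have := card_subgroup_dvd_card B.ker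
    rwa [h8] at this
  have hm := B.ker.card_mul_index
  rw [h8] at hm
  obtain ⟨k, hk, hc⟩ := (Nat.dvd_prime_pow Nat.prime_two).1 hd
  interval_cases k
  · exfalso
    have hR : B.ker = ⊥ := card_eq_one.1 hc
    have hinj : ∀ a, (∀ u, B a u = 1) → a = 1 := fun a ha => by
      have : a ∈ B.ker := MonoidHom.ext ha
      rwa [hR] at this
    obtain ⟨t, ht⟩ := exists_prime_orderOf_dvd_card' (G := T) 2 (by rw [h8]; norm_num)
    have ht1 : t ≠ 1 := by rintro rfl; simp at ht
    have hi := r8_index (B t) (fun u => by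
      rw [← MonoidHom.pow_apply, ← map_pow, ← ht, pow_orderOf_eq_one, map_one]; rfl)
    rcases (Nat.dvd_prime Nat.prime_two).1 hi with hi | hi
    · exact ht1 (hinj t fun u => by
        have : u ∈ (B t).ker := by rw [index_eq_one.1 hi]; trivial
        exact this)
    set A := (B t).ker with hA
    have hA4 : Nat.card A = 4 := by
      have := A.card_mul_index
      rw [h8, hi] at this; omega
    have hle : zpowers t ≤ A := zpowers_le.2 (hB t)
    have hiso : ∀ a ∈ A, ∀ a' ∈ A, B a a' = 1 := by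
      refine r8_idx2 B hB (R := zpowers t) ?_ ?_
      · have h1 := ((zpowers t).subgroupOf A).card_mul_index
        rw [Nat.card_congr (subgroupOfEquivOfLe hle).toEquiv, Nat.card_zpowers, ht, hA4] at h1
        omega
      · rintro _ ⟨n, rfl⟩ a ha
        have h1 : B t a = 1 := ha
        simp [h1]
    obtain ⟨y, hy⟩ : ∃ y, y ∉ A := by
      by_contra hn
      push Not at hn
      rw [(eq_top_iff' A).2 hn, index_top] at hi
      omega
    let g : A →* Z := (B.flip y).comp A.subtype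
    have hg := r8_index g (fun a => by
      change B a y ^ 2 = 1
      rw [← map_pow]; exact hiso _ a.2 _ (sq_mem_of_index_two hi y))
    have hgk : g.ker ≠ ⊥ := fun h => by
      rw [h, index_bot, hA4] at hg
      omega
    obtain ⟨⟨a, ha⟩, ha1⟩ := (ne_bot_iff_exists_ne_one).1 hgk
    refine ha1 (Subtype.ext (Subtype.ext (hinj a fun u => ?_)))
    by_cases hu : u ∈ A
    · exact hiso _ a.2 _ hu
    · have h1 : y⁻¹ * u ∈ A := by
        rw [mul_mem_iff_of_index_two hi, inv_mem_iff]; exact iff_of_false hy hu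
      have h2 : B a y = 1 := ha
      have h3 := hiso _ a.2 _ h1
      simpa [h2] using h3
  · exact Or.inr hc
  · left
    have hi : (B.ker.subgroupOf ⊤).index = 2 := by
      rw [← relIndex, relIndex_top_right]
      rw [hc] at hm; omega
    exact fun t u => r8_idx2 B hB hi (fun r hr a _ => by
      rw [MonoidHom.mem_ker.1 hr]; rfl) t trivial u trivial
  · left
    have hi : B.ker = ⊤ := by
      rw [← index_eq_one]
      rw [hc] at hm; omega
    intro t u
    have : t ∈ B.ker := by rw [hi]; trivial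
    rw [MonoidHom.mem_ker.1 this]; rfl

end r8form

theorem r8_comm_congr {L : Type*} [Group L] {x x' y y' : L}
    (hx : (x : L ⧸ center L) = x') (hy : (y : L ⧸ center L) = y') : ⁅x, y⁆ = ⁅x', y'⁆ := by
  obtain ⟨z, hz⟩ : ∃ z ∈ center L, x' = x * z := ⟨x⁻¹ * x', QuotientGroup.eq.1 hx, by group⟩
  obtain ⟨w, hw⟩ : ∃ w ∈ center L, y' = y * w := ⟨y⁻¹ * y', QuotientGroup.eq.1 hy, by group⟩
  obtain ⟨hz, rfl⟩ := hz
  obtain ⟨hw, rfl⟩ := hw
  have h1 : ∀ a : L, z * a * z⁻¹ = a := fun a => by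
    rw [← mem_center_iff.1 hz a, mul_inv_cancel_right]
  have h2 : ∀ a : L, w * a * w⁻¹ = a := fun a => by
    rw [← mem_center_iff.1 hw a, mul_inv_cancel_right]
  calc ⁅x, y⁆ = x * (z * y * z⁻¹) * (w * (z * x⁻¹ * z⁻¹) * w⁻¹) * y⁻¹ := by
        rw [h1, h1, h2, commutatorElement_def]
    _ = x * z * (y * w) * (z⁻¹ * (z * x⁻¹ * z⁻¹) ) * w⁻¹ * y⁻¹ := by
        rw [h1 x⁻¹]
        have h3 : z⁻¹ * w = w * z⁻¹ := mem_center_iff.1 hw _
        calc x * (z * y * z⁻¹) * (w * x⁻¹ * w⁻¹) * y⁻¹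
            = x * z * y * (z⁻¹ * w) * x⁻¹ * w⁻¹ * y⁻¹ := by group
          _ = _ := by rw [h3]; group
    _ = _ := by rw [h1 x⁻¹, commutatorElement_def]; group

theorem r8 {L : Type*} [Group L] [Finite L] (hL : IsQuasisimple L) (hc : IsCyclic (center L))
    (T : Sylow 2 (L ⧸ center L)) (hT : IsMulCommutative T) (h8 : Nat.card T = 8)
    (Q : Sylow 2 L) : IsMulCommutative Q := by
  classical
  have := hL.1
  let π := QuotientGroup.mk' (center L)
  have hπ : Function.Surjective π := QuotientGroup.mk'_surjective _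
  let T' := Q.mapSurjective hπ
  have e := Sylow.equiv T' T
  have hT' : IsMulCommutative T' := ⟨⟨fun a b => e.injective (by
    rw [map_mul, map_mul, hT.is_comm.comm])⟩⟩
  have h8' : Nat.card T' = 8 := (Nat.card_congr e.toEquiv).trans h8
  have hcen : ∀ x y : L, π x ∈ T' → π y ∈ T' → ⁅x, y⁆ ∈ center L := fun x y hx hy => by
    rw [← QuotientGroup.eq_one_iff]
    change π ⁅x, y⁆ = 1
    rw [map_commutatorElement, commutatorElement_eq_one_iff_mul_comm]
    exact congrArg Subtype.val (hT'.is_comm.comm ⟨_, hx⟩ ⟨_, hy⟩)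
  choose l hl using id hπ
  letI : CommGroup (center L) := IsCyclic.commGroup
  let b : T' → T' → center L := fun t u =>
    ⟨⁅l t, l u⁆, hcen _ _ (by rw [hl]; exact t.2) (by rw [hl]; exact u.2)⟩
  have hb : ∀ (t u : T') (x y : L), π x = t → π y = u → (b t u : L) = ⁅x, y⁆ :=
    fun t u x y hx hy => r8_comm_congr ((hl _).trans hx.symm) ((hl _).trans hy.symm)
  let B : T' →* T' →* center L := MonoidHom.mk' (fun t => MonoidHom.mk' (b t) (fun u u' => by
      apply Subtype.ext
      rw [hb t (u * u') (l t) (l u * l u') (hl _) (by rw [map_mul, hl, hl]; rfl)]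
      change _ = ⁅l t, l u⁆ * ⁅l t, l u'⁆
      have h1 := mem_center_iff.1 (b t u').2 (l u)
      change l u * ⁅l t, l u'⁆ = ⁅l t, l u'⁆ * l u at h1
      calc ⁅l t, l u * l u'⁆ = ⁅l t, l u⁆ * (l u * ⁅l t, l u'⁆) * (l u)⁻¹ := by
            simp only [commutatorElement_def]; group
        _ = _ := by rw [h1]; group)) (fun t t' => by
      ext u
      change ((b (t * t') u : center L) : L) = ⁅l t, l u⁆ * ⁅l t', l u⁆
      rw [hb (t * t') u (l t * l t') (l u) (by rw [map_mul, hl, hl]; rfl) (hl _)]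
      have h1 := mem_center_iff.1 (b t' u).2 (l t)
      have h2 := mem_center_iff.1 (b t' u).2 ⁅l t, l u⁆
      change l t * ⁅l t', l u⁆ = ⁅l t', l u⁆ * l t at h1
      change ⁅l t, l u⁆ * ⁅l t', l u⁆ = ⁅l t', l u⁆ * ⁅l t, l u⁆ at h2
      calc ⁅l t * l t', l u⁆ = (l t * ⁅l t', l u⁆) * (l t)⁻¹ * ⁅l t, l u⁆ := by
            simp only [commutatorElement_def]; group
        _ = _ := by rw [h1, h2]; group)
  have hB : ∀ (t u : T') (x y : L), π x = t → π y = u → (B t u : L) = ⁅x, y⁆ := hb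
  rcases r8_form h8' B (fun t => Subtype.ext (commutatorElement_self _)) with h | h
  · refine ⟨⟨fun x y => Subtype.ext ?_⟩⟩
    have h1 := hB ⟨π x, x, x.2, rfl⟩ ⟨π y, y, y.2, rfl⟩ x y rfl rfl
    rw [h] at h1
    exact commutatorElement_eq_one_iff_mul_comm.1 h1.symm
  · exfalso
    obtain ⟨t, ht1, htu⟩ := (Nat.card_eq_two_iff' (1 : B.ker)).1 h
    have hres : pResidual 2 (L ⧸ center L) = ⊤ :=
      (Transfer.pResidual_eq_top_iff_le_commutator T').2 (by
        rw [Group.IsPerfect.commutator_eq_top]; exact le_top)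
    have hbot := Transfer.inf_centralizer_normalizer_eq_bot T' hT' hres
    have hmem : ((t : T') : L ⧸ center L) ∈ (T' : Subgroup (L ⧸ center L)) ⊓
        centralizer (normalizer ((T' : Subgroup (L ⧸ center L)) : Set (L ⧸ center L)) :
          Set (L ⧸ center L)) := by
      refine ⟨(t : T').2, mem_centralizer_iff.2 fun n hn => ?_⟩
      have hn' : ∀ s, s ∈ (T' : Subgroup (L ⧸ center L)) ↔
          n * s * n⁻¹ ∈ (T' : Subgroup (L ⧸ center L)) := hn
      let t' : T' := ⟨n * (t : T') * n⁻¹, (hn' _).1 (t : T').2⟩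
      have ht' : t' ∈ B.ker := by
        refine MonoidHom.ext fun u => Subtype.ext ?_
        let u' : T' := ⟨n⁻¹ * u * n, (hn' _).2 (by
          rw [show n * (n⁻¹ * u * n) * n⁻¹ = u by group]; exact u.2)⟩
        have h1 := hB t u' (l (t : T')) (l u') (hl _) (hl _)
        rw [MonoidHom.mem_ker.1 t.2] at h1
        rw [hB t' u (l n * l (t : T') * (l n)⁻¹) (l n * l u' * (l n)⁻¹)
          (by simp only [map_mul, map_inv, hl]; rfl)
          (by simp only [map_mul, map_inv, hl]; change n * (n⁻¹ * u * n) * n⁻¹ = u; group)]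
        calc ⁅l n * l (t : T') * (l n)⁻¹, l n * l u' * (l n)⁻¹⁆
            = l n * ⁅l (t : T'), l u'⁆ * (l n)⁻¹ := by
              simp only [commutatorElement_def]; group
          _ = _ := by rw [← h1]; simp
      have h2 : (⟨t', ht'⟩ : B.ker) = t := htu _ (fun h3 => ht1 (by
        have h4 : n * (t : T') * n⁻¹ = 1 := congrArg (fun s : B.ker => ((s : T') : L ⧸ center L)) h3
        have h5 : ((t : T') : L ⧸ center L) = 1 := by
          rwa [mul_inv_eq_one, mul_eq_left] at h4
        exact Subtype.ext (Subtype.ext h5)))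
      have h3 : n * (t : T') * n⁻¹ = (t : T') :=
        congrArg (fun s : B.ker => ((s : T') : L ⧸ center L)) h2
      rw [← mul_inv_eq_iff_eq_mul]; exact h3
    rw [hbot] at hmem
    exact ht1 (Subtype.ext (Subtype.ext hmem))

end CfsgLib.FRS
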