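import Mathlib
import Cfsg.Agent.Lib.FRS.Defs
import Cfsg.Agent.Lib.Triple.Cover

/-! FRS package RED: reduction to central type along a character triple.

Proof. `χ|Z = e θ`, `e ≠ 0` (`e² = [H:Z]`), so `θ` is invariant (`χ` is a class function:
`θ (cj Z g n) = θ n`). `Triple.exists_cover Z hθ hinv hd` gives `Γ₀` and `c : Cover Z θ Γ₀`.
Put `Γ := Γ₀ ⧸ c.ι.range`, `q := QuotientGroup.mk' _`, `p := c.π`. `c.isIrr_res` gives `E|q.ker`
irreducible (`q.ker = c.ι.range`); `hlam : E z = lam z * E 1` is `c.E_mul z 1`; for `n = ι m`,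
`χ (π n) = e θ m = e E n`, so the inner product is `e ≠ 0`. `Triple.span_down` gives `β ∈ Irr Γ`,
`lam z * β (q z) = β 1`, `χ (π x) = β (q x) * E x`; at `x = 1` (`c.E_one`, `θ 1 ≠ 0`): `β 1 = e`.
`W := (q.comp c.π.ker.subtype).range` (central, `c.central`), the map is injective
(`c.ker_inf_range`), `j := MonoidHom.ofInjective`, `lamW := (c.lam.comp j.symm)⁻¹`.
The surjection `Γ₀ → H → H ⧸ Z` has kernel `Z.comap π = π.ker ⊔ ι.range` (`c.comap_eq`,
`c.mem_comap_iff`); it factors through `Γ` (`QuotientGroup.lift`) with kernel `W`, which gives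
`Γ ⧸ W ≃* H ⧸ Z` and `W.index = Z.index`. -/

set_option autoImplicit false

namespace CfsgLib.FRS

open Cfsg Subgroup

universe u

theorem red {H : Type u} [Group H] [Finite H] (Z : Subgroup H) [Z.Normal] (h : FR H Z) :
    ∃ (Γ : Type u) (_ : Group Γ) (_ : Finite Γ) (W : Subgroup Γ) (_ : W.Normal) (χ : Γ → ℂ)
      (lam : W →* ℂˣ) (e : ℕ), CT W χ lam e ∧ Nonempty (Γ ⧸ W ≃* H ⧸ Z) := by
  classical
  obtain ⟨χ, θ, e, hχ, hθ, he, hval⟩ := h
  have he0 : (e : ℂ) ≠ 0 := by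
    rw [Nat.cast_ne_zero]
    rintro rfl
    exact index_ne_zero_of_finite (he.symm.trans (by simp))
  have hinv : ∀ (g : H) (n : Z), θ (CharDeep.cj Z g n) = θ n := fun g n => by
    apply mul_left_cancel₀ he0
    rw [← hval, ← hval]
    obtain ⟨m, ρ, -, rfl⟩ := hχ
    exact ρ.char_conj _ _
  obtain ⟨d, -, hd⟩ := Char.exists_irr_one_eq_nat hθ
  obtain ⟨Γ₀, _, _, c, -⟩ := Triple.exists_cover Z hθ hinv hd
  let q : Γ₀ →* Γ₀ ⧸ c.ι.range := QuotientGroup.mk' _
  have hq : Function.Surjective q := QuotientGroup.mk'_surjective _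
  have hqk : q.ker = c.ι.range := QuotientGroup.ker_mk' _
  have := Fintype.ofFinite q.ker
  have hEq : IsIrrCharacter q.ker (fun n => c.E n) :=
    c.isIrr_res hθ q.ker.subtype q.ker.subtype_injective (by rw [range_subtype, hqk])
  have hlam : ∀ z : c.π.ker, c.E z = ((c.lam z : ℂˣ) : ℂ) * c.E 1 := fun z => by
    rw [← c.E_mul, mul_one]
  have hres : (fun n : q.ker => χ (c.π n)) = (e : ℂ) • fun n : q.ker => c.E n := by
    funext n
    obtain ⟨m, hm⟩ : (n : Γ₀) ∈ c.ι.range := hqk.le n.2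
    rw [Pi.smul_apply, ← hm, c.π_ι, c.E_ι, hval, smul_eq_mul]
  obtain ⟨β, hβ, hβl, hβχ⟩ := Triple.span_down c.π q c.surj hq
    (Char.isCharacter_of_isIrr c.irr) hEq (fun z => ((c.lam z : ℂˣ) : ℂ)) hlam hχ (by
      rw [hres, Char.classInner_smul_left, Char.classInner_irr_self hEq, mul_one]; exact he0)
  have hβ1 : β 1 = e := by
    have h1 := hβχ 1
    have h2 := hval 1
    rw [map_one, map_one, c.E_one] at h1
    rw [OneMemClass.coe_one, h1] at h2
    exact mul_right_cancel₀ (Char.irr_one_ne_zero hθ) h2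
  let f : c.π.ker →* Γ₀ ⧸ c.ι.range := q.comp c.π.ker.subtype
  have hf : Function.Injective f := by
    rw [injective_iff_map_eq_one]
    intro z hz
    have h1 : (z : Γ₀) ∈ c.π.ker ⊓ c.ι.range := ⟨z.2, hqk.le hz⟩
    rw [c.ker_inf_range] at h1
    exact Subtype.ext h1
  have hcen : f.range ≤ center (Γ₀ ⧸ c.ι.range) := by
    rintro _ ⟨z, rfl⟩
    rw [mem_center_iff]
    intro y
    obtain ⟨x, rfl⟩ := hq y
    change q x * q z = q z * q x
    rw [← map_mul, ← map_mul, mem_center_iff.1 (c.central z.2) x]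
  have hN : f.range.Normal := ⟨fun z hz g => by
    rw [(mem_center_iff.1 (hcen hz) g), mul_inv_cancel_right]; exact hz⟩
  let j := MonoidHom.ofInjective hf
  let F : Γ₀ →* H ⧸ Z := (QuotientGroup.mk' Z).comp c.π
  have hF : ∀ x ∈ c.ι.range, F x = 1 := by
    rintro _ ⟨n, rfl⟩
    change ((c.π (c.ι n) : H) : H ⧸ Z) = 1
    rw [c.π_ι, QuotientGroup.eq_one_iff]; exact n.2
  let F' : Γ₀ ⧸ c.ι.range →* H ⧸ Z := QuotientGroup.lift _ F hF
  have hF's : Function.Surjective F' := fun y => by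
    obtain ⟨x, rfl⟩ := ((QuotientGroup.mk'_surjective Z).comp c.surj) y
    exact ⟨q x, rfl⟩
  have hF'k : F'.ker = f.range := by
    ext y
    obtain ⟨x, rfl⟩ := hq y
    have h1 : q x ∈ F'.ker ↔ c.π x ∈ Z := QuotientGroup.eq_one_iff (N := Z) (c.π x)
    rw [h1, c.mem_comap_iff]
    constructor
    · rintro ⟨z, hz, n, rfl⟩
      refine ⟨⟨z, hz⟩, ?_⟩
      have h2 : q (c.ι n) = 1 := by
        rw [← MonoidHom.mem_ker, hqk]; exact ⟨n, rfl⟩
      rw [map_mul, h2, mul_one]; rfl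
    · rintro ⟨z, hz⟩
      have h2 : (z : Γ₀)⁻¹ * x ∈ q.ker := by
        rw [MonoidHom.mem_ker, map_mul, map_inv, ← hz]; exact inv_mul_cancel _
      rw [hqk] at h2
      obtain ⟨n, hn⟩ := h2
      exact ⟨z, z.2, n, by rw [hn, mul_inv_cancel_left]⟩
  let E : (Γ₀ ⧸ c.ι.range) ⧸ f.range ≃* H ⧸ Z :=
    (QuotientGroup.quotientMulEquivOfEq hF'k.symm).trans
      (QuotientGroup.quotientKerEquivOfSurjective F' hF's)
  refine ⟨Γ₀ ⧸ c.ι.range, inferInstance, inferInstance, f.range, hN, β,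
    (c.lam.comp j.symm.toMonoidHom)⁻¹, e, ⟨hcen, hβ, ?_, ?_, ?_⟩, ⟨E⟩⟩
  · intro a b hab
    have h1 : c.lam (j.symm a) = c.lam (j.symm b) := inv_injective hab
    exact j.symm.injective (c.lam_inj h1)
  · rw [he]
    exact (Nat.card_congr E.toEquiv).symm
  · intro w
    obtain ⟨z, rfl⟩ := j.surjective w
    have h1 := hβl z
    change β (q z) = e * (((c.lam (j.symm (j z)))⁻¹ : ℂˣ) : ℂ)
    rw [j.symm_apply_apply, ← hβ1, ← h1, mul_comm _ (β _), mul_assoc, Units.mul_inv, mul_one]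

end CfsgLib.FRS
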